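import Cfsg.Agent.H169.RG.Toral
import Cfsg.Agent.H694.RG.EngP

/-!
# S3509: useful elements from the toral form (helper692 for helper338)

`usY_of_frame` : a component `Mf` of the centraliser of `t` in the fixed points of the frame automorphism `α` of the toral form
of `y` gives a useful `M = z Mf z⁻¹` for `y`; `M` is normalised by the whole centraliser of `y` in `Y ^ σ`.
-/

set_option autoImplicit false
set_option linter.unusedSectionVars false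
open Cfsg

namespace Cfsg.Agent.H692.RG.FrUs

open Subgroup Cfsg Cfsg.Lie Cfsg.Lie.ChevalleyDatum
open Cfsg.Agent.ChevalleyStructure Cfsg.Agent.ChevalleyStructure.CoxeterGeom
  Cfsg.Agent.ChevalleyStructure.CoxeterGeomTypes
open Cfsg.Agent.Nodes.RGDChev Cfsg.Agent.KFacts.RgdChevCoord
open Cfsg.Agent.H469.Exc Cfsg.Agent.H316.U6
open Cfsg.Agent.BpExc Cfsg.Agent.BpExc.Pair
open Cfsg.Agent.H327.RG Cfsg.Agent.H368.RG Cfsg.Agent.H873.RG Cfsg.Agent.H380.RC Cfsg.Agent.H694.RG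
open Cfsg.Agent.H169.RG
open scoped commutatorElement

section Abs

variable {Y : Type*} [Group Y]

theorem mem_map_conj {H : Subgroup Y} {z x : Y} : x ∈ H.map (MulAut.conj z).toMonoidHom ↔ z⁻¹ * x * z ∈ H := by
  constructor
  · rintro ⟨a, ha, rfl⟩
    have e : z⁻¹ * (MulAut.conj z).toMonoidHom a * z = a := by
      show z⁻¹ * (z * a * z⁻¹) * z = a
      group
    rw [e]
    exact ha
  · intro h
    refine ⟨_, h, ?_⟩
    show z * (z⁻¹ * x * z) * z⁻¹ = x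
    group

theorem map_conj_normalizer {H : Subgroup Y} {z c : Y} (h : z⁻¹ * c * z ∈ Subgroup.normalizer (H : Set Y)) :
    c ∈ Subgroup.normalizer (H.map (MulAut.conj z).toMonoidHom : Set Y) := by
  rw [mem_normalizer_iff] at h ⊢
  intro x
  have e : z⁻¹ * (c * x * c⁻¹) * z = z⁻¹ * c * z * (z⁻¹ * x * z) * (z⁻¹ * c * z)⁻¹ := by group
  rw [mem_map_conj, mem_map_conj, e]
  exact h _

theorem cmm_map {U : Subgroup Y} {z t v : Y} (h : v ∈ cmm U t) :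
    z * v * z⁻¹ ∈ cmm (U.map (MulAut.conj z).toMonoidHom) (z * t * z⁻¹) := by
  unfold cmm at h ⊢
  have h1 : closure {w | ∃ u ∈ U, w = u * t * u⁻¹ * t⁻¹} ≤
      (closure {w | ∃ u ∈ U.map (MulAut.conj z).toMonoidHom, w = u * (z * t * z⁻¹) * u⁻¹ * (z * t * z⁻¹)⁻¹}).comap
        (MulAut.conj z).toMonoidHom := by
    rw [closure_le]
    rintro _ ⟨u, hu, rfl⟩
    refine subset_closure ⟨z * u * z⁻¹, ⟨u, hu, rfl⟩, ?_⟩
    show z * (u * t * u⁻¹ * t⁻¹) * z⁻¹ = _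
    group
  exact h1 h

/-- quotient by the centre, transported -/
theorem exists_quot {Y : Type} [Group Y] {H : Subgroup Y} [Finite H] (z : Y) (h : NSA (↥H ⧸ Subgroup.center ↥H)) :
    ∃ (S' : Type) (_ : Group S') (_ : Finite S') (π : ↥(H.map (MulAut.conj z).toMonoidHom) →* S'),
      Function.Surjective π ∧ π.ker ≤ Subgroup.center ↥(H.map (MulAut.conj z).toMonoidHom) ∧ NSA S' := by
  let e : ↥H ≃* ↥(H.map (MulAut.conj z).toMonoidHom) := H.equivMapOfInjective _ (MulAut.conj z).injective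
  refine ⟨↥H ⧸ Subgroup.center ↥H, inferInstance, inferInstance,
    (QuotientGroup.mk' (Subgroup.center ↥H)).comp e.symm.toMonoidHom, ?_, ?_, h⟩
  · exact (QuotientGroup.mk'_surjective _).comp e.symm.surjective
  · intro x hx
    have h1 : e.symm x ∈ Subgroup.center ↥H := (QuotientGroup.eq_one_iff _).1 hx
    rw [Subgroup.mem_center_iff] at h1 ⊢
    intro g
    have h2 := h1 (e.symm g)
    rw [← map_mul, ← map_mul] at h2
    exact e.symm.injective h2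

end Abs

variable {D : ChevalleyDatum} {l : ℕ} {M : CoxeterMatrix (Fin l)} {hp : IsType D l M} {r q : ℕ} [hr : Fact r.Prime]
  {K₀ : Type} [Group K₀]

/-- the `r`-elements of `Y ^ σ` -/
theorem mem_range_of_pow (m : MData hp r q K₀) (hrd : ¬ r ∣ m.dd) {x : ↥(D.group (KK r))} (hx : m.σ x = x) {j : ℕ}
    (hj : x ^ r ^ j = 1) : x ∈ m.ι.range :=
  H469.Exc.mem_of_pow hj (((Nat.Prime.coprime_iff_not_dvd hr.out).2 hrd).symm) (m.pow_dd x hx)

/-- **Useful elements from the toral form.** -/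
theorem usY_of_frame (m : MData hp r q K₀) (hrd : ¬ r ∣ m.dd) {y : ↥(D.group (KK r))} (hy1 : y ≠ 1) {ℓ : ℕ}
    (hℓ : ℓ.Prime) (hy3 : y ^ ℓ = 1) (hF : Fr m.ι m.σ) (f : TorForm m y) {Mf : Subgroup ↥(D.group (KK r))}
    (h1 : Mf ≤ fixC f.α f.t) (h2 : ⁅Mf, Mf⁆ = Mf) (h3 : NSA (↥Mf ⧸ Subgroup.center ↥Mf))
    (h4 : ∀ P : Subgroup ↥(D.group (KK r)), (∀ x ∈ Mf, (∃ j, x ^ r ^ j = 1) → x ∈ P) → Mf ≤ P)
    (h5 : ∀ c ∈ fixC f.α f.t, c ∈ Subgroup.normalizer (Mf : Set ↥(D.group (KK r))))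
    (h6 : ∀ z ∈ fixC f.α f.t, (∀ x ∈ Mf, z * x = x * z) → z ∈ Subgroup.zpowers f.t)
    {v : ↥(D.group (KK r))} (hv : v ∈ Mf) (hv1 : v ≠ 1) {U : Subgroup ↥(D.group (KK r))}
    (hU : U ≤ fixedSubgroup f.α) (hUr : ∀ x ∈ U, ∃ j, x ^ r ^ j = 1) (hUv : ∀ x ∈ U, x * v = v * x)
    (hvU : v ∈ cmm U f.t) :
    UsY m.ι (fixedSubgroup m.σ) r (Mf.map (MulAut.conj f.z).toMonoidHom) y ∧
      ∀ c, m.σ c = c → c * y = y * c →
        c ∈ Subgroup.normalizer (Mf.map (MulAut.conj f.z).toMonoidHom : Set ↥(D.group (KK r))) := by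
  have hconj : ∀ {x : ↥(D.group (KK r))}, x ∈ fixC m.σ y → f.z⁻¹ * x * f.z ∈ fixC f.α f.t := fun {x} hx =>
    mem_fixC.2 ⟨(f.fix_iff _).2 (mem_fixC.1 hx).1, (f.comm_iff _).1 (mem_fixC.1 hx).2⟩
  have hback : ∀ {x : ↥(D.group (KK r))}, f.z⁻¹ * x * f.z ∈ fixC f.α f.t → x ∈ fixC m.σ y := fun {x} hx =>
    mem_fixC.2 ⟨(f.fix_iff _).1 (mem_fixC.1 hx).1, (f.comm_iff _).2 (mem_fixC.1 hx).2⟩
  have hM' : Mf.map (MulAut.conj f.z).toMonoidHom ≤ fixC m.σ y := fun x hx => hback (h1 (mem_map_conj.1 hx))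
  have hcen : ∀ x ∈ Mf.map (MulAut.conj f.z).toMonoidHom, y * x = x * y := fun x hx => (mem_fixC.1 (hM' hx)).2.symm
  have hle : Mf.map (MulAut.conj f.z).toMonoidHom ≤ m.ι.range := by
    rw [Subgroup.map_le_iff_le_comap]
    refine h4 _ fun x hx ⟨j, hj⟩ => ?_
    show f.z * x * f.z⁻¹ ∈ m.ι.range
    refine mem_range_of_pow m hrd ((f.fix_iff' x).2 (mem_fixC.1 (h1 hx)).1) (j := j) ?_
    rw [conj_pow, hj]
    group
  have hnorm : ∀ c, m.σ c = c → c * y = y * c →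
      c ∈ Subgroup.normalizer (Mf.map (MulAut.conj f.z).toMonoidHom : Set ↥(D.group (KK r))) := fun c hc hcy =>
    map_conj_normalizer (h5 _ (hconj (mem_fixC.2 ⟨hc, hcy⟩)))
  have hfin : Finite ↥Mf := by
    have := m.fin
    have h7 : Finite ↥(Mf.map (MulAut.conj f.z).toMonoidHom) :=
      Set.Finite.subset (Set.toFinite (fixedSubgroup m.σ : Set ↥(D.group (KK r)))) fun x hx => (mem_fixC.1 (hM' hx)).1
    exact Finite.of_equiv _
      (Mf.equivMapOfInjective (MulAut.conj f.z).toMonoidHom (MulAut.conj f.z).injective).symm.toEquiv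
  refine ⟨⟨hle, fun h => hy1 ?_, ?_, exists_quot f.z h3, ?_, hcen, fun c hc hcy _ => hnorm c hc hcy⟩, hnorm⟩
  · refine hF.cent y fun a => ?_
    exact hcen _ (by rw [h]; exact ⟨a, rfl⟩)
  · rw [← Subgroup.map_commutator, h2]
  · have e := f.eq
    have e' : f.z * f.t * f.z⁻¹ = y := e.symm
    refine deadYAt_one hF hle hℓ hy3 hy1 (fun z hz hzM hzy => ?_) (v := f.z * v * f.z⁻¹) ⟨v, hv, rfl⟩
      (fun h => hv1 ?_) (U := U.map (MulAut.conj f.z).toMonoidHom) ?_ ?_ ?_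
    · obtain ⟨k, hk⟩ := Subgroup.mem_zpowers_iff.1 (h6 (f.z⁻¹ * z * f.z) (hconj (mem_fixC.2 ⟨hz.1, hzy⟩)) fun x hx => by
        have h8 := hzM (f.z * x * f.z⁻¹) ⟨x, hx, rfl⟩
        calc f.z⁻¹ * z * f.z * x = f.z⁻¹ * (z * (f.z * x * f.z⁻¹)) * f.z := by group
          _ = f.z⁻¹ * ((f.z * x * f.z⁻¹) * z) * f.z := by rw [h8]
          _ = x * (f.z⁻¹ * z * f.z) := by group)
      refine Subgroup.mem_zpowers_iff.2 ⟨k, ?_⟩
      rw [← e', conj_zpow, hk]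
      group
    · calc v = f.z⁻¹ * (f.z * v * f.z⁻¹) * f.z := by group
        _ = 1 := by rw [h]; group
    · rintro _ ⟨u, hu, rfl⟩
      obtain ⟨j, hj⟩ := hUr u hu
      refine mem_range_of_pow m hrd ((f.fix_iff' u).2 (hU hu)) (j := j) ?_
      show (f.z * u * f.z⁻¹) ^ r ^ j = 1
      rw [conj_pow, hj]
      group
    · rintro _ ⟨u, hu, rfl⟩
      show (f.z * u * f.z⁻¹) * (f.z * v * f.z⁻¹) = (f.z * v * f.z⁻¹) * (f.z * u * f.z⁻¹)
      calc (f.z * u * f.z⁻¹) * (f.z * v * f.z⁻¹) = f.z * (u * v) * f.z⁻¹ := by group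
        _ = f.z * (v * u) * f.z⁻¹ := by rw [hUv u hu]
        _ = (f.z * v * f.z⁻¹) * (f.z * u * f.z⁻¹) := by group
    · have h9 := cmm_map (z := f.z) hvU
      rwa [e'] at h9

end Cfsg.Agent.H692.RG.FrUs
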